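-- Team project PG63 (S3664, helper14): package [LEX] (helper97).
import Cfsg.Agent.Lib.Helper14.PG63.Defs

set_option autoImplicit false

namespace Cfsg.Agent.Lib.Helper97.PG63

open Cfsg.Agent.Lib.Helper14.PG63 Matrix

universe u

section Gen

variable {F : Type u} [Field F]

/-- a matrix with `M ^ (k + 1) = 1` as an element of `GL₄` -/
def glPow (M : Matrix (Fin 4) (Fin 4) F) (k : ℕ) (h : M ^ (k + 1) = 1) : GL (Fin 4) F :=
  ⟨M, M ^ k, by rw [← pow_succ', h], by rw [← pow_succ, h]⟩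

theorem glPow_coe (M : Matrix (Fin 4) (Fin 4) F) (k : ℕ) (h : M ^ (k + 1) = 1) :
    ((glPow M k h : GL (Fin 4) F) : Matrix (Fin 4) (Fin 4) F) = M := rfl

theorem orderOf_glPow (M : Matrix (Fin 4) (Fin 4) F) (k : ℕ) (h : M ^ (k + 1) = 1)
    (hp : (k + 1).Prime) (h1 : M ≠ 1) : orderOf (glPow M k h) = k + 1 := by
  have : Fact (k + 1).Prime := ⟨hp⟩
  apply orderOf_eq_prime
  · apply Units.ext
    rw [Units.val_pow_eq_pow_val]
    exact h
  · intro h'
    exact h1 (congrArg Units.val h')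

theorem comm_inl_inr (g : GL (Fin 4) F) (τ : RingAut F) (h : mapHom F τ g = g) :
    Commute (SemidirectProduct.inl g : Amb F) (SemidirectProduct.inr τ) := by
  show (SemidirectProduct.inl g : Amb F) * SemidirectProduct.inr τ
    = SemidirectProduct.inr τ * SemidirectProduct.inl g
  apply SemidirectProduct.ext
  · simp [h]
  · simp

theorem orderOf_inl (g : GL (Fin 4) F) :
    orderOf (SemidirectProduct.inl g : Amb F) = orderOf g :=
  orderOf_injective (SemidirectProduct.inl : GL (Fin 4) F →* Amb F)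
    SemidirectProduct.inl_injective g

theorem orderOf_inr (τ : RingAut F) :
    orderOf (SemidirectProduct.inr τ : Amb F) = orderOf τ :=
  orderOf_injective (SemidirectProduct.inr : RingAut F →* Amb F)
    SemidirectProduct.inr_injective τ

end Gen

section Char2

variable {F : Type u} [Field F] [Fintype F] [CharP F 2]

theorem inl_mem_L (g : GL (Fin 4) F) (h : Pred (g : Matrix (Fin 4) (Fin 4) F)) :
    (SemidirectProduct.inl g : Amb F) ∈ L F :=
  Subgroup.subset_closure (Or.inl ⟨h, rfl⟩)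

theorem inr_mem_L : (SemidirectProduct.inr (frobAut F) : Amb F) ∈ L F :=
  Subgroup.subset_closure (Or.inr rfl)

theorem frob_fix (g : GL (Fin 4) F)
    (h : sqm F (g : Matrix (Fin 4) (Fin 4) F) = (g : Matrix (Fin 4) (Fin 4) F)) :
    mapHom F (frobAut F) g = g := by
  apply Units.ext
  rw [mapHom_coe]
  exact h

theorem inl_smul (g : GL (Fin 4) F) (X : Matrix (Fin 4) (Fin 4) F) :
    (SemidirectProduct.inl g : Amb F) • X
      = (g : Matrix (Fin 4) (Fin 4) F) * X * (sqm F (g : Matrix (Fin 4) (Fin 4) F))ᵀ := by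
  rw [smul_def]
  rfl

theorem pkgLEx : PkgLEx.{u} := by
  intro hEx hFrob F _ _ _ hF
  obtain ⟨a, ha, pJ, pN1, pNa, pNa1, sJ, sN1, fJ, fX, hX0, hJ0, hJJ, hJ1, h5, h51, h7, h71,
    h13, h131⟩ := hEx hF
  obtain ⟨hfr, -⟩ := hFrob hF
  have hJ2 : J4 F ^ (1 + 1) = 1 := by rw [pow_two]; exact hJJ
  have h5' : N (1 : F) ^ (4 + 1) = 1 := h5
  have h7' : N a ^ (6 + 1) = 1 := h7
  have h13' : N (a + 1) ^ (12 + 1) = 1 := h13
  let gJ : GL (Fin 4) F := glPow (J4 F) 1 hJ2
  let g5 : GL (Fin 4) F := glPow (N (1 : F)) 4 h5'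
  let g7 : GL (Fin 4) F := glPow (N a) 6 h7'
  let g13 : GL (Fin 4) F := glPow (N (a + 1)) 12 h13'
  have oJ : orderOf gJ = 2 := orderOf_glPow _ 1 hJ2 (by norm_num) hJ1
  have o5 : orderOf g5 = 5 := orderOf_glPow _ 4 h5' (by norm_num) h51
  have o7 : orderOf g7 = 7 := orderOf_glPow _ 6 h7' (by norm_num) h71
  have o13 : orderOf g13 = 13 := orderOf_glPow _ 12 h13' (by norm_num) h131
  have mJ : (SemidirectProduct.inl gJ : Amb F) ∈ L F := inl_mem_L gJ pJ
  have m5 : (SemidirectProduct.inl g5 : Amb F) ∈ L F := inl_mem_L g5 pN1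
  have m7 : (SemidirectProduct.inl g7 : Amb F) ∈ L F := inl_mem_L g7 pNa
  have m13 : (SemidirectProduct.inl g13 : Amb F) ∈ L F := inl_mem_L g13 pNa1
  have mf : (SemidirectProduct.inr (frobAut F) : Amb F) ∈ L F := inr_mem_L
  refine ⟨?_, ?_, ?_, ?_, ?_⟩
  · refine ⟨⟨_, mul_mem mJ mf⟩, ?_⟩
    rw [Subgroup.orderOf_mk]
    have hc := comm_inl_inr gJ (frobAut F) (frob_fix gJ sJ)
    rw [hc.orderOf_mul_eq_mul_orderOf_of_coprime (by
      rw [orderOf_inl, orderOf_inr, oJ, hfr]; norm_num), orderOf_inl, orderOf_inr, oJ, hfr]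
  · refine ⟨⟨_, mul_mem m5 mf⟩, ?_⟩
    rw [Subgroup.orderOf_mk]
    have hc := comm_inl_inr g5 (frobAut F) (frob_fix g5 sN1)
    rw [hc.orderOf_mul_eq_mul_orderOf_of_coprime (by
      rw [orderOf_inl, orderOf_inr, o5, hfr]; norm_num), orderOf_inl, orderOf_inr, o5, hfr]
  · refine ⟨⟨_, m13⟩, ?_⟩
    rw [Subgroup.orderOf_mk, orderOf_inl, o13]
  · refine ⟨⟨_, m5⟩, ?_, J4 F, hJ0, ?_⟩
    · rw [Subgroup.orderOf_mk, orderOf_inl, o5]
    · show (SemidirectProduct.inl g5 : Amb F) • J4 F = J4 F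
      rw [inl_smul]
      exact fJ
  · refine ⟨⟨_, m7⟩, ?_, X7 a, hX0, ?_⟩
    · rw [Subgroup.orderOf_mk, orderOf_inl, o7]
    · show (SemidirectProduct.inl g7 : Amb F) • X7 a = X7 a
      rw [inl_smul]
      exact fX

end Char2

end Cfsg.Agent.Lib.Helper97.PG63
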